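import Cfsg.Agent.H578.HT.Cov
import Cfsg.Agent.Omega.NO1.Comp.Field

/-!
# S3540, section 4, task X2: eigenvectors of `l c` on `V = W ⊗ W'`
-/

set_option autoImplicit false

universe u

namespace Cfsg.Agent.H199.HT

open Cfsg.Agent.Omega.NO1.Comp TensorProduct Module

/-- a linear map for which every vector is an eigenvector is a scalar -/
theorem scalar_of_all {K W : Type*} [Field K] [AddCommGroup W] [Module K W] (f : W →ₗ[K] W)
    (h : ∀ w, w ≠ 0 → ∃ k : K, f w = k • w) : ∃ k : K, ∀ w, f w = k • w := by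
  obtain ⟨a, ha⟩ := LinearMap.exists_eq_smul_id_of_forall_notLinearIndependent (f := f) (fun v => by
    intro hli
    have hv : v ≠ 0 := hli.ne_zero 0
    obtain ⟨k, hk⟩ := h v hv
    have h1 := LinearIndependent.pair_iff.1 hli k (-1) (by rw [hk, neg_smul, one_smul, add_neg_cancel])
    exact one_ne_zero (neg_eq_zero.1 h1.2))
  exact ⟨a, fun w => by rw [ha]; rfl⟩

/-- number of eigenvectors of a linear map with small eigenspaces -/
theorem eig_count {K V : Type*} [Field K] [AddCommGroup V] [Module K V] [Finite V] [Finite K]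
    (f : V →ₗ[K] V) {d k : ℕ} (hd : ∀ c : K, finrank K (End.eigenspace f c) ≤ d) (hd0 : 0 < d)
    (hk : finrank K V ≤ k * d) :
    Nat.card {v : V // v ≠ 0 ∧ ∃ c : K, f v = c • v} ≤ k * (Nat.card K ^ d - 1) := by
  classical
  have : Module.Finite K V := Module.Finite.of_finite
  let _ : Fintype K := Fintype.ofFinite K
  set q := Nat.card K with hq
  have hq1 : 1 < q := Finite.one_lt_card
  let E : K → Submodule K V := fun c => End.eigenspace f c
  have hE : ∀ (c : K) (v : V), v ∈ E c ↔ f v = c • v := fun c v => End.mem_eigenspace_iff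
  have hcard : ∀ c, Nat.card (E c) = q ^ finrank K (E c) := fun c =>
    Module.natCard_eq_pow_finrank
  have hcard2 : ∀ c, Nat.card (E c) = Nat.card {v : V // f v = c • v} := fun c =>
    Nat.card_congr (Equiv.subtypeEquivRight (hE c))
  have hsum : ∑ c, finrank K (E c) ≤ finrank K V :=
    H578.HT.sum_finrank_le E (End.eigenspaces_iSupIndep _)
  have h1 : Nat.card {v : V // v ≠ 0 ∧ ∃ c : K, f v = c • v} ≤ ∑ c : K, (q ^ finrank K (E c) - 1) := by
    refine (H578.HT.natCard_le_sum (ι := K) _ (fun c v => v ≠ 0 ∧ f v = c • v)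
      (fun v hv => ?_)).trans (le_of_eq ?_)
    · obtain ⟨hv0, c, hc⟩ := hv
      exact ⟨c, hv0, hc⟩
    · refine Finset.sum_congr rfl (fun c _ => ?_)
      rw [H578.HT.natCard_ne_zero_and _ (by rw [map_zero, smul_zero]), ← hcard2, hcard]
  refine h1.trans ?_
  refine Nat.le_of_mul_le_mul_left ?_ hd0
  calc d * ∑ c : K, (q ^ finrank K (E c) - 1)
      = ∑ c : K, d * (q ^ finrank K (E c) - 1) := Finset.mul_sum _ _ _
    _ ≤ ∑ c : K, finrank K (E c) * (q ^ d - 1) :=
        Finset.sum_le_sum (fun c _ => H578.HT.conv hq1.le (hd c))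
    _ = (∑ c : K, finrank K (E c)) * (q ^ d - 1) := (Finset.sum_mul _ _ _).symm
    _ ≤ (k * d) * (q ^ d - 1) := Nat.mul_le_mul_right _ (hsum.trans hk)
    _ = d * (k * (q ^ d - 1)) := by ring

variable {K V : Type u} [Field K] [AddCommGroup V] [Module K V] {L C : Set (End K V)}
  {W W' : Type u} [AddCommGroup W] [Module K W] [AddCommGroup W'] [Module K W']

theorem finrank_dec (D : Dec L C W W') : finrank K V = finrank K W * finrank K W' := by
  rw [← D.φ.finrank_eq, finrank_tensorProduct]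

/-- if `l c` has an eigenspace of dimension at least `3`, then `l` is a scalar -/
theorem scalar_left [Finite V] (D : Dec L C W W') (h2 : finrank K W = 2) (h2' : finrank K W' = 2)
    {l c : End K V} (hl : l ∈ L) (hc : c ∈ C) (hinj : Function.Injective (l ∘ₗ c)) {k : K}
    (hE : 3 ≤ finrank K (End.eigenspace (l ∘ₗ c) k)) : ∃ m : K, ∀ v, l v = m • v := by
  have : Module.Finite K V := Module.Finite.of_finite
  have := D.finL
  have := D.finR
  have : Module.Finite K W := Module.Finite.of_finite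
  have : Module.Finite K W' := Module.Finite.of_finite
  have h4 : finrank K V = 4 := by rw [finrank_dec D, h2, h2']
  obtain ⟨m, hm⟩ := scalar_of_all (D.ρ l) (by
    intro w hw
    -- the subspace `w ⊗ W'`
    let ψ : W' →ₗ[K] V := (D.φ : W ⊗[K] W' →ₗ[K] V) ∘ₗ (TensorProduct.mk K W W' w)
    have hψ : ∀ w', ψ w' = D.φ (w ⊗ₜ w') := fun w' => rfl
    have hψi : Function.Injective ψ := fun a b hab => D.inj_right hw hab
    have h5 : finrank K (LinearMap.range ψ) = 2 := by rw [LinearMap.finrank_range_of_inj hψi, h2']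
    have h6 := Submodule.finrank_sup_add_finrank_inf_eq (End.eigenspace (l ∘ₗ c) k) (LinearMap.range ψ)
    have h7 : finrank K ↥(End.eigenspace (l ∘ₗ c) k ⊔ LinearMap.range ψ) ≤ finrank K V :=
      Submodule.finrank_le _
    have h8 : 0 < finrank K ↥(End.eigenspace (l ∘ₗ c) k ⊓ LinearMap.range ψ) := by omega
    have := Module.finrank_pos_iff.1 h8
    obtain ⟨⟨x, hx⟩, hx0⟩ := exists_ne (0 : ↥(End.eigenspace (l ∘ₗ c) k ⊓ LinearMap.range ψ))
    have hx1 : x ≠ 0 := fun h => hx0 (Subtype.ext h)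
    obtain ⟨hxE, w', rfl⟩ := hx
    have hw' : w' ≠ 0 := by
      rintro rfl
      exact hx1 (map_zero _)
    have h9 : (l ∘ₗ c) (ψ w') = k • ψ w' := End.mem_eigenspace_iff.1 hxE
    have h10 : D.φ (D.ρ l w ⊗ₜ D.ρ' c w') = D.φ ((k • w) ⊗ₜ w') := by
      rw [← TensorProduct.smul_tmul', map_smul, ← hψ, ← h9, LinearMap.comp_apply, hψ, D.hc c hc, D.hl l hl]
    have hk : k ≠ 0 := by
      rintro rfl
      rw [zero_smul] at h9
      exact hx1 (hinj (by rw [h9, map_zero]))
    have h11 := D.φ.injective h10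
    obtain ⟨f, hf⟩ := exists_dual (K := K) hw'
    have h12 := congrArg (TensorProduct.lift ((LinearMap.lsmul K W).flip.compl₂ f) : W ⊗[K] W' →ₗ[K] W) h11
    have h13 : f (D.ρ' c w') • D.ρ l w = k • w := by
      simpa [hf] using h12
    have h14 : f (D.ρ' c w') ≠ 0 := by
      intro h0
      rw [h0, zero_smul] at h13
      rcases smul_eq_zero.1 h13.symm with h15 | h15
      · exact hk h15
      · exact hw h15
    refine ⟨(f (D.ρ' c w'))⁻¹ * k, ?_⟩
    rw [mul_smul, ← h13, smul_smul, inv_mul_cancel₀ h14, one_smul])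
  refine ⟨m, fun v => ?_⟩
  have h3 : l = m • (LinearMap.id : V →ₗ[K] V) := D.ext (fun w w' => by
    rw [D.hl l hl, hm, ← TensorProduct.smul_tmul', map_smul]; rfl)
  rw [h3]; rfl

theorem scalar_right [Finite V] (D : Dec L C W W') (h2 : finrank K W = 2) (h2' : finrank K W' = 2)
    {l c : End K V} (hl : l ∈ L) (hc : c ∈ C) (hlc : l ∘ₗ c = c ∘ₗ l) (hinj : Function.Injective (l ∘ₗ c)) {k : K}
    (hE : 3 ≤ finrank K (End.eigenspace (l ∘ₗ c) k)) : ∃ m : K, ∀ v, c v = m • v := by
  rw [hlc] at hinj hE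
  exact scalar_left D.symm h2' h2 hc hl hinj hE

end Cfsg.Agent.H199.HT
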